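import Mathlib
import Cfsg.Agent.H546.F4.Eig
import Cfsg.Agent.H177.F4.Emb

/-!
# S5927, `Cases.big_odd`: the abstract part (helper500)

* `Cub` : the lift of the involutions along a central extension with kernel of exponent 3;
* `no_A8` : no such lift of `A₈` acts on a 27-dimensional module in characteristic not 2 such that every involution has
  a fixed space of dimension 11 or 15.
-/

set_option autoImplicit false
set_option maxRecDepth 10000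

namespace Cfsg.Agent.H500.E6Big

open Module Equiv
open Cfsg.Agent.H952.F4 (ev es)
open Cfsg.Agent.H546.F4Eig

/-! ### Lifts -/

section lift
variable {Z G A : Type*} [Group Z] [Group G] [Group A] {π : Z →* G}

theorem cube_eq (hk : ∀ z, π z = 1 → z ^ 3 = 1 ∧ ∀ x, z * x = x * z) {x y : Z} (h : π x = π y) : x ^ 3 = y ^ 3 := by
  obtain ⟨h1, h2⟩ := hk (x * y⁻¹) (by rw [map_mul, map_inv, h, mul_inv_cancel])
  have e : x = (x * y⁻¹) * y := by group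
  have hc : Commute (x * y⁻¹) y := h2 y
  rw [e, hc.mul_pow, h1, one_mul]

/-- the cube of a preimage -/
noncomputable def cub (hπ : Function.Surjective π) (φ : A →* G) (a : A) : Z := (Classical.choose (hπ (φ a))) ^ 3

theorem cub_eq (hk : ∀ z, π z = 1 → z ^ 3 = 1 ∧ ∀ x, z * x = x * z) (hπ : Function.Surjective π) (φ : A →* G) {a : A}
    {x : Z} (h : π x = φ a) : cub hπ φ a = x ^ 3 :=
  cube_eq hk ((Classical.choose_spec (hπ (φ a))).trans h.symm)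

theorem cub_sq (hk : ∀ z, π z = 1 → z ^ 3 = 1 ∧ ∀ x, z * x = x * z) (hπ : Function.Surjective π) (φ : A →* G) {a : A}
    (ha : a * a = 1) : cub hπ φ a * cub hπ φ a = 1 := by
  obtain ⟨x, hx⟩ := hπ (φ a)
  rw [cub_eq hk hπ φ hx]
  have h1 := (hk (x * x) (by rw [map_mul, hx, ← map_mul, ha, map_one])).1
  rw [← pow_two, ← pow_mul] at h1
  rw [← pow_add]
  exact h1

theorem map_cub (hπ : Function.Surjective π) (φ : A →* G) {a : A} (ha : a * a = 1) : π (cub hπ φ a) = φ a := by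
  unfold cub
  rw [map_pow, Classical.choose_spec (hπ (φ a)), ← map_pow, pow_succ, pow_two, ha, one_mul]

theorem cub_comm (hk : ∀ z, π z = 1 → z ^ 3 = 1 ∧ ∀ x, z * x = x * z) (hπ : Function.Surjective π) (φ : A →* G)
    {a b : A} (hab : a * b = b * a) : cub hπ φ a * cub hπ φ b = cub hπ φ b * cub hπ φ a := by
  obtain ⟨x, hx⟩ := hπ (φ a)
  obtain ⟨y, hy⟩ := hπ (φ b)
  rw [cub_eq hk hπ φ hx, cub_eq hk hπ φ hy]
  have h1 : (y * x * y⁻¹) ^ 3 = x ^ 3 := cube_eq hk (by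
    rw [map_mul, map_mul, map_inv, hx, hy, ← map_inv, ← map_mul, ← map_mul, ← hab, mul_inv_cancel_right])
  have h2 : y * x ^ 3 = x ^ 3 * y := by
    rw [conj_pow] at h1
    calc y * x ^ 3 = (y * x ^ 3 * y⁻¹) * y := by group
      _ = x ^ 3 * y := by rw [h1]
  have h3 : Commute (x ^ 3) y := h2.symm
  exact h3.pow_right 3

theorem cub_mul (hk : ∀ z, π z = 1 → z ^ 3 = 1 ∧ ∀ x, z * x = x * z) (hπ : Function.Surjective π) (φ : A →* G)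
    {a b : A} (ha : a * a = 1) (hb : b * b = 1) (hab : a * b = b * a) :
    cub hπ φ (a * b) = cub hπ φ a * cub hπ φ b := by
  have h1 : π (cub hπ φ a * cub hπ φ b) = φ (a * b) := by
    rw [map_mul, map_cub hπ φ ha, map_cub hπ φ hb, map_mul]
  rw [cub_eq hk hπ φ h1]
  have hc : Commute (cub hπ φ a) (cub hπ φ b) := cub_comm hk hπ φ hab
  rw [hc.mul_pow, pow_succ, pow_two, cub_sq hk hπ φ ha, one_mul, pow_succ, pow_two, cub_sq hk hπ φ hb, one_mul]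

theorem cub_conj (hk : ∀ z, π z = 1 → z ^ 3 = 1 ∧ ∀ x, z * x = x * z) (hπ : Function.Surjective π) (φ : A →* G)
    (g a : A) : ∃ y : Z, y * cub hπ φ a * y⁻¹ = cub hπ φ (g * a * g⁻¹) := by
  obtain ⟨x, hx⟩ := hπ (φ a)
  obtain ⟨y, hy⟩ := hπ (φ g)
  refine ⟨y, ?_⟩
  have h1 : π (y * x * y⁻¹) = φ (g * a * g⁻¹) := by
    rw [map_mul, map_mul, map_inv, hx, hy, map_mul, map_mul, map_inv]
  rw [cub_eq hk hπ φ hx, cub_eq hk hπ φ h1, conj_pow]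

end lift

/-! ### Elements of `A₈` -/

def e1 : ↥(alternatingGroup (Fin 8)) := ⟨swap 0 1 * swap 2 3, by rw [Perm.mem_alternatingGroup]; decide +kernel⟩
def e2 : ↥(alternatingGroup (Fin 8)) := ⟨swap 0 2 * swap 1 3, by rw [Perm.mem_alternatingGroup]; decide +kernel⟩
def e3 : ↥(alternatingGroup (Fin 8)) := ⟨swap 4 5 * swap 6 7, by rw [Perm.mem_alternatingGroup]; decide +kernel⟩
def e4 : ↥(alternatingGroup (Fin 8)) := ⟨swap 4 6 * swap 5 7, by rw [Perm.mem_alternatingGroup]; decide +kernel⟩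
def r3 : ↥(alternatingGroup (Fin 8)) :=
  ⟨swap 0 4 * swap 1 5 * swap 2 6 * swap 3 7, by rw [Perm.mem_alternatingGroup]; decide +kernel⟩

def g1 : ↥(alternatingGroup (Fin 8)) :=
  ⟨⟨![0, 2, 1, 3, 4, 5, 7, 6], ![0, 2, 1, 3, 4, 5, 7, 6], by decide, by decide⟩, by rw [Perm.mem_alternatingGroup]; decide +kernel⟩
def g2 : ↥(alternatingGroup (Fin 8)) :=
  ⟨⟨![4, 5, 6, 7, 0, 1, 2, 3], ![4, 5, 6, 7, 0, 1, 2, 3], by decide, by decide⟩, by rw [Perm.mem_alternatingGroup]; decide +kernel⟩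
def g3 : ↥(alternatingGroup (Fin 8)) :=
  ⟨⟨![4, 6, 5, 7, 0, 1, 3, 2], ![4, 5, 7, 6, 0, 2, 1, 3], by decide, by decide⟩, by rw [Perm.mem_alternatingGroup]; decide +kernel⟩
def g4 : ↥(alternatingGroup (Fin 8)) :=
  ⟨⟨![0, 3, 1, 2, 4, 5, 6, 7], ![0, 2, 3, 1, 4, 5, 6, 7], by decide, by decide⟩, by rw [Perm.mem_alternatingGroup]; decide +kernel⟩
def g5 : ↥(alternatingGroup (Fin 8)) :=
  ⟨⟨![4, 7, 5, 6, 0, 1, 2, 3], ![4, 5, 6, 7, 0, 2, 3, 1], by decide, by decide⟩, by rw [Perm.mem_alternatingGroup]; decide +kernel⟩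
def g6 : ↥(alternatingGroup (Fin 8)) :=
  ⟨⟨![0, 2, 4, 6, 1, 3, 5, 7], ![0, 4, 1, 5, 2, 6, 3, 7], by decide, by decide⟩, by rw [Perm.mem_alternatingGroup]; decide +kernel⟩
def g7 : ↥(alternatingGroup (Fin 8)) :=
  ⟨⟨![0, 1, 4, 7, 2, 3, 5, 6], ![0, 1, 4, 5, 2, 6, 7, 3], by decide, by decide⟩, by rw [Perm.mem_alternatingGroup]; decide +kernel⟩
def g8 : ↥(alternatingGroup (Fin 8)) :=
  ⟨⟨![0, 1, 4, 6, 3, 2, 5, 7], ![0, 1, 5, 4, 2, 6, 3, 7], by decide, by decide⟩, by rw [Perm.mem_alternatingGroup]; decide +kernel⟩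
def g9 : ↥(alternatingGroup (Fin 8)) :=
  ⟨⟨![0, 2, 4, 7, 1, 3, 6, 5], ![0, 4, 1, 5, 2, 7, 6, 3], by decide, by decide⟩, by rw [Perm.mem_alternatingGroup]; decide +kernel⟩
def g10 : ↥(alternatingGroup (Fin 8)) :=
  ⟨⟨![0, 1, 4, 5, 2, 3, 6, 7], ![0, 1, 4, 5, 2, 3, 6, 7], by decide, by decide⟩, by rw [Perm.mem_alternatingGroup]; decide +kernel⟩
def g11 : ↥(alternatingGroup (Fin 8)) :=
  ⟨⟨![0, 1, 4, 7, 3, 2, 6, 5], ![0, 1, 5, 4, 2, 7, 6, 3], by decide, by decide⟩, by rw [Perm.mem_alternatingGroup]; decide +kernel⟩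
def g12 : ↥(alternatingGroup (Fin 8)) :=
  ⟨⟨![0, 2, 4, 5, 1, 3, 7, 6], ![0, 4, 1, 5, 2, 3, 7, 6], by decide, by decide⟩, by rw [Perm.mem_alternatingGroup]; decide +kernel⟩
def g13 : ↥(alternatingGroup (Fin 8)) :=
  ⟨⟨![0, 1, 4, 6, 2, 3, 7, 5], ![0, 1, 4, 5, 2, 7, 3, 6], by decide, by decide⟩, by rw [Perm.mem_alternatingGroup]; decide +kernel⟩
def g14 : ↥(alternatingGroup (Fin 8)) :=
  ⟨⟨![0, 1, 4, 5, 3, 2, 7, 6], ![0, 1, 5, 4, 2, 3, 7, 6], by decide, by decide⟩, by rw [Perm.mem_alternatingGroup]; decide +kernel⟩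
def g15 : ↥(alternatingGroup (Fin 8)) :=
  ⟨⟨![0, 1, 4, 5, 3, 2, 7, 6], ![0, 1, 5, 4, 2, 3, 7, 6], by decide, by decide⟩, by rw [Perm.mem_alternatingGroup]; decide +kernel⟩
def g16 : ↥(alternatingGroup (Fin 8)) :=
  ⟨⟨![0, 1, 2, 3, 5, 4, 7, 6], ![0, 1, 2, 3, 5, 4, 7, 6], by decide, by decide⟩, by rw [Perm.mem_alternatingGroup]; decide +kernel⟩
def g17 : ↥(alternatingGroup (Fin 8)) :=
  ⟨⟨![0, 1, 2, 3, 6, 7, 4, 5], ![0, 1, 2, 3, 6, 7, 4, 5], by decide, by decide⟩, by rw [Perm.mem_alternatingGroup]; decide +kernel⟩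
def g18 : ↥(alternatingGroup (Fin 8)) :=
  ⟨⟨![0, 1, 2, 3, 7, 6, 5, 4], ![0, 1, 2, 3, 7, 6, 5, 4], by decide, by decide⟩, by rw [Perm.mem_alternatingGroup]; decide +kernel⟩

theorem gr1 : g1 * e1 * g1⁻¹ = e2 := by decide +kernel
theorem gr2 : g2 * e1 * g2⁻¹ = e3 := by decide +kernel
theorem gr3 : g3 * e1 * g3⁻¹ = e4 := by decide +kernel
theorem gr4 : g4 * e1 * g4⁻¹ = e1 * e2 := by decide +kernel
theorem gr5 : g5 * e1 * g5⁻¹ = e3 * e4 := by decide +kernel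
theorem gr6 : g6 * r3 * g6⁻¹ = e1 * e3 := by decide +kernel
theorem gr7 : g7 * r3 * g7⁻¹ = e2 * e3 := by decide +kernel
theorem gr8 : g8 * r3 * g8⁻¹ = e1 * e2 * e3 := by decide +kernel
theorem gr9 : g9 * r3 * g9⁻¹ = e1 * e4 := by decide +kernel
theorem gr10 : g10 * r3 * g10⁻¹ = e2 * e4 := by decide +kernel
theorem gr11 : g11 * r3 * g11⁻¹ = e1 * e2 * e4 := by decide +kernel
theorem gr12 : g12 * r3 * g12⁻¹ = e1 * (e3 * e4) := by decide +kernel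
theorem gr13 : g13 * r3 * g13⁻¹ = e2 * (e3 * e4) := by decide +kernel
theorem gr14 : g14 * r3 * g14⁻¹ = e1 * e2 * (e3 * e4) := by decide +kernel
theorem gr15 : g15 * r3 * g15⁻¹ = e1 * e3 * (e2 * e4) := by decide +kernel
theorem gr16 : g16 * r3 * g16⁻¹ = e1 * e3 * r3 := by decide +kernel
theorem gr17 : g17 * r3 * g17⁻¹ = e2 * e4 * r3 := by decide +kernel
theorem gr18 : g18 * r3 * g18⁻¹ = e1 * e3 * (e2 * e4) * r3 := by decide +kernel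

def CA (y : ↥(alternatingGroup (Fin 8))) : Prop := ∃ g, g * e1 * g⁻¹ = y
def CB (y : ↥(alternatingGroup (Fin 8))) : Prop := ∃ g, g * r3 * g⁻¹ = y

theorem sqs : e1 * e1 = 1 ∧ e2 * e2 = 1 ∧ e3 * e3 = 1 ∧ e4 * e4 = 1 ∧ r3 * r3 = 1 ∧ e1 * e2 = e2 * e1 ∧ e1 * e3 = e3 * e1 ∧
    e1 * e4 = e4 * e1 ∧ e2 * e3 = e3 * e2 ∧ e2 * e4 = e4 * e2 ∧ e3 * e4 = e4 * e3 ∧
    (e1 * e3) * (e2 * e4) = (e2 * e4) * (e1 * e3) ∧ (e1 * e3) * r3 = r3 * (e1 * e3) ∧ (e2 * e4) * r3 = r3 * (e2 * e4) := by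
  decide +kernel

theorem tyA : CA (e2) ∧ CA (e3) ∧ CA (e4) ∧ CA (e1 * e2) ∧ CA (e3 * e4) :=
  ⟨⟨g1, gr1⟩, ⟨g2, gr2⟩, ⟨g3, gr3⟩, ⟨g4, gr4⟩, ⟨g5, gr5⟩⟩

theorem tyB : CB (e1 * e3) ∧
    CB (e2 * e3) ∧
    CB (e1 * e2 * e3) ∧
    CB (e1 * e4) ∧
    CB (e2 * e4) ∧
    CB (e1 * e2 * e4) ∧
    CB (e1 * (e3 * e4)) ∧
    CB (e2 * (e3 * e4)) ∧
    CB (e1 * e2 * (e3 * e4)) ∧
    CB (e1 * e3 * (e2 * e4)) ∧
    CB (e1 * e3 * r3) ∧
    CB (e2 * e4 * r3) ∧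
    CB (e1 * e3 * (e2 * e4) * r3) :=
  ⟨⟨g6, gr6⟩, ⟨g7, gr7⟩, ⟨g8, gr8⟩, ⟨g9, gr9⟩, ⟨g10, gr10⟩, ⟨g11, gr11⟩, ⟨g12, gr12⟩, ⟨g13, gr13⟩, ⟨g14, gr14⟩, ⟨g15, gr15⟩, ⟨g16, gr16⟩, ⟨g17, gr17⟩, ⟨g18, gr18⟩⟩

theorem ne_ones : e1 ≠ 1 ∧ r3 ≠ 1 := by decide +kernel

/-! ### The contradiction -/

theorem ev_conj' {K V G : Type*} [Field K] [AddCommGroup V] [Module K V] [FiniteDimensional K V] [Group G]
    (ρ : Representation K G V) (g x : G) : ev (ρ (g * x * g⁻¹)) 1 = ev (ρ x) 1 := by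
  have hinj : ∀ g : G, Function.Injective (ρ g) := by
    intro g v w hvw
    have h : ∀ v, ρ g⁻¹ (ρ g v) = v := fun v => by rw [← rho_mul, inv_mul_cancel, map_one]; rfl
    rw [← h v, hvw, h]
  have key : ∀ g x : G, ev (ρ x) 1 ≤ ev (ρ (g * x * g⁻¹)) 1 := by
    intro g x
    rw [ev_eq, ev_eq, (Submodule.equivMapOfInjective (ρ g) (hinj g) (es (ρ x) 1)).finrank_eq]
    apply Submodule.finrank_mono
    rintro _ ⟨v, hv, rfl⟩
    rw [SetLike.mem_coe, mem_es_one] at hv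
    rw [mem_es_one, ← rho_mul]
    have e : g * x * g⁻¹ * g = g * x := by group
    rw [e, rho_mul, hv]
  apply le_antisymm _ (key g x)
  have h := key g⁻¹ (g * x * g⁻¹)
  have e : g⁻¹ * (g * x * g⁻¹) * g⁻¹⁻¹ = x := by group
  rwa [e] at h

theorem no_A8 {K V Z : Type*} [Field K] [AddCommGroup V] [Module K V] [FiniteDimensional K V] [Group Z]
    (h2 : (2 : K) ≠ 0) (ρ : Representation K Z V) (hd : finrank K V = 27) (f : ↥(alternatingGroup (Fin 8)) → Z)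
    (hsq : ∀ a, a * a = 1 → f a * f a = 1) (hcomm : ∀ a b, a * b = b * a → f a * f b = f b * f a)
    (hmul : ∀ a b, a * a = 1 → b * b = 1 → a * b = b * a → f (a * b) = f a * f b)
    (hconj : ∀ g a, ∃ y : Z, y * f a * y⁻¹ = f (g * a * g⁻¹))
    (hev : ∀ a, a ≠ 1 → a * a = 1 → ev (ρ (f a)) 1 = 15 ∨ ev (ρ (f a)) 1 = 11) : False := by
  obtain ⟨q1, q2, q3, q4, q5, c12, c13, c14, c23, c24, c34, d12, d13, d23⟩ := sqs
  obtain ⟨n1, n5⟩ := ne_ones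
  -- the dimensions
  have hA : ∀ y : ↥(alternatingGroup (Fin 8)), CA y → ev (ρ (f y)) 1 = ev (ρ (f e1)) 1 := by
    intro y hy
    obtain ⟨g, hg⟩ := hy
    obtain ⟨z, hz⟩ := hconj g e1
    rw [hg] at hz
    rw [← hz, ev_conj']
  have hB : ∀ y : ↥(alternatingGroup (Fin 8)), CB y → ev (ρ (f y)) 1 = ev (ρ (f r3)) 1 := by
    intro y hy
    obtain ⟨g, hg⟩ := hy
    obtain ⟨z, hz⟩ := hconj g r3
    rw [hg] at hz
    rw [← hz, ev_conj']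
  have hTA := hev e1 n1 q1
  have hTB := hev r3 n5 q5
  obtain ⟨ty2, ty3, ty4, ty12, ty34⟩ := tyA
  obtain ⟨b13, b23, b123, b14, b24, b124, b134, b234, b1234, b1324, b13r, b24r, b1324r⟩ := tyB
  have sq_of : ∀ {a b : ↥(alternatingGroup (Fin 8))}, a * a = 1 → b * b = 1 → a * b = b * a → (a * b) * (a * b) = 1 := by
    intro a b ha hb hab
    calc a * b * (a * b) = a * (b * a) * b := by group
      _ = a * (a * b) * b := by rw [hab]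
      _ = (a * a) * (b * b) := by group
      _ = 1 := by rw [ha, hb, one_mul]
  have s13 := sq_of q1 q3 c13
  have s24 := sq_of q2 q4 c24
  have s34 := sq_of q3 q4 c34
  have s12 := sq_of q1 q2 c12
  -- the regular group
  have k1 := eight h2 ρ (hsq _ s13) (hsq _ s24) (hsq _ q5) (hcomm _ _ d12) (hcomm _ _ d13) (hcomm _ _ d23)
  have s1324 := sq_of s13 s24 d12
  have d : (e1 * e3) * (e2 * e4) * r3 = r3 * ((e1 * e3) * (e2 * e4)) := by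
    rw [mul_assoc, d23, ← mul_assoc, d13, mul_assoc]
  rw [← hmul _ _ s13 s24 d12, ← hmul _ _ s13 q5 d13, ← hmul _ _ s24 q5 d23, ← hmul _ _ s1324 q5 d,
    hB _ b13, hB _ b24, hB _ b1324, hB _ b13r, hB _ b24r, hB _ b1324r, hd] at k1
  -- `V₄ × V₄`
  have k2 := four h2 ρ (hsq _ q1) (hsq _ q2) (hcomm _ _ c12)
  rw [← hmul _ _ q1 q2 c12, hA e2 ty2, hA (e1 * e2) ty12, hd] at k2
  have key : ∀ c : ↥(alternatingGroup (Fin 8)), c * c = 1 → e1 * c = c * e1 → e2 * c = c * e2 →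
      CA c → CB (e1 * c) → CB (e2 * c) → CB (e1 * e2 * c) →
      4 * finrank K ↥(es (ρ (f e1)) 1 ⊓ es (ρ (f e2)) 1 ⊓ es (ρ (f c)) 1) + 3 * 27 =
        4 * ev (ρ (f e1)) 1 + 3 * ev (ρ (f r3)) 1 := by
    intro c hc hc1 hc2 t0 t1 t2 t3
    have h := eight h2 ρ (hsq _ q1) (hsq _ q2) (hsq _ hc) (hcomm _ _ c12) (hcomm _ _ hc1) (hcomm _ _ hc2)
    have d' : e1 * e2 * c = c * (e1 * e2) := by rw [mul_assoc, hc2, ← mul_assoc, hc1, mul_assoc]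
    rw [← hmul _ _ q1 q2 c12, ← hmul _ _ q1 hc hc1, ← hmul _ _ q2 hc hc2, ← hmul _ _ s12 hc d', hA e2 ty2, hA c t0,
      hA (e1 * e2) ty12, hB _ t1, hB _ t2, hB _ t3, hd] at h
    omega
  have k3 := key e3 q3 c13 c23 ty3 b13 b23 b123
  have k4 := key e4 q4 c14 c24 ty4 b14 b24 b124
  have c134 : e1 * (e3 * e4) = e3 * e4 * e1 := by rw [← mul_assoc, c13, mul_assoc, c14, mul_assoc]
  have c234 : e2 * (e3 * e4) = e3 * e4 * e2 := by rw [← mul_assoc, c23, mul_assoc, c24, mul_assoc]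
  have k5 := key (e3 * e4) s34 c134 c234 ty34 b134 b234 b1234
  have inv : ∀ c : ↥(alternatingGroup (Fin 8)), e1 * c = c * e1 → e2 * c = c * e2 →
      ∀ v ∈ es (ρ (f e1)) 1 ⊓ es (ρ (f e2)) 1, ρ (f c) v ∈ es (ρ (f e1)) 1 ⊓ es (ρ (f e2)) 1 := by
    intro c hc1 hc2 v hv
    obtain ⟨hv1, hv2⟩ := hv
    rw [SetLike.mem_coe, mem_es_one] at hv1 hv2
    refine ⟨?_, ?_⟩
    · rw [SetLike.mem_coe, mem_es_one, rho_comm ρ (hcomm _ _ hc1), hv1]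
    · rw [SetLike.mem_coe, mem_es_one, rho_comm ρ (hcomm _ _ hc2), hv2]
  have k6 := four_rel ρ h2 (hsq _ q3) (hsq _ q4) (hcomm _ _ c34) (es (ρ (f e1)) 1 ⊓ es (ρ (f e2)) 1)
    (inv e3 c13 c23) (inv e4 c14 c24)
  rw [← hmul _ _ q3 q4 c34] at k6
  omega

end Cfsg.Agent.H500.E6Big
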