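import Mathlib
import Cfsg.Agent.H163.E6.Defs
import Cfsg.Agent.H333.E6Act
import Cfsg.Agent.H944.E6Tab
import Cfsg.Agent.H500.E6.BigAbs

/-!
# S5927, `Cases.big_odd` (helper500)
-/

set_option autoImplicit false
set_option linter.unusedSectionVars false

namespace Cfsg.Agent.H163.E6

open Cfsg Cfsg.Lie Module
open Cfsg.Agent.ChevalleyStructure.E6Min.Tables Cfsg.Agent.ChevalleyStructure.E6Min.Basic
  Cfsg.Agent.ChevalleyStructure.E6Min.Adjoint
open Cfsg.Agent.H952.F4 (ev es matRep sh cr tf MaxAlt)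
open Cfsg.Agent.H500.E6Big

universe u

namespace Cases
variable {F : Type u} [Field F] [Finite F] {n : ℕ}

theorem big_odd_ker (z : ↥(Zgrp F)) (hz : ad F z = 1) : z ^ 3 = 1 ∧ ∀ x, z * x = x * z := by
  obtain ⟨c, hc, hzc⟩ := (Act.ad_eq_one_iff z).1 hz
  constructor
  · apply Subtype.ext
    rw [SubgroupClass.coe_pow, hzc]
    show scal c ^ 3 = 1
    unfold scal
    rw [← map_pow, hc, map_one]
  · intro x
    apply Subtype.ext
    apply Units.ext
    show ((z : GL I27 F) : Matrix I27 I27 F) * ((x : GL I27 F) : Matrix I27 I27 F) =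
      ((x : GL I27 F) : Matrix I27 I27 F) * ((z : GL I27 F) : Matrix I27 I27 F)
    rw [hzc, Act.coe_scal, smul_mul_assoc, one_mul, mul_smul_comm, mul_one]

theorem big_odd (p : ℕ) [Fact p.Prime] [CharP F p] (hp2 : p ≠ 2) (hn : 8 ≤ n)
    {φ : ↥(alternatingGroup (Fin n)) →* ↥(chevE6.group F)} (hφ : Function.Injective φ) : False := by
  have T : Tab p F := Tor.tab p
  have h2 : (2 : F) ≠ 0 := by
    intro h
    have h1 : ((2 : ℕ) : F) = 0 := by exact_mod_cast h
    rw [CharP.cast_eq_zero_iff F p] at h1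
    exact hp2 ((Nat.prime_dvd_prime_iff_eq Fact.out Nat.prime_two).1 h1)
  have hsurj : Function.Surjective (ad F) := ad_surjective
  let y : Equiv.Perm (Fin n) := Equiv.Perm.extendDomainHom (Cfsg.Agent.H177.F4.fst hn) (e1 : Equiv.Perm (Fin 8))
  have hy : y.cycleType = ((e1 : ↥(alternatingGroup (Fin 8))) : Equiv.Perm (Fin 8)).cycleType := by
    show (Equiv.Perm.extendDomainHom (Cfsg.Agent.H177.F4.fst hn) (e1 : Equiv.Perm (Fin 8))).cycleType = _
    rw [Equiv.Perm.extendDomainHom_apply, Equiv.Perm.cycleType_extendDomain]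
  have hy' : Equiv.Perm.sign y = 1 := by
    show Equiv.Perm.sign (Equiv.Perm.extendDomainHom (Cfsg.Agent.H177.F4.fst hn) (e1 : Equiv.Perm (Fin 8))) = 1
    rw [Equiv.Perm.extendDomainHom_apply, Equiv.Perm.sign_extendDomain]
    exact Equiv.Perm.mem_alternatingGroup.1 e1.2
  obtain ⟨ι, hι, -⟩ := Cfsg.Agent.H177.F4.exists_emb hn e1 ⟨y, Equiv.Perm.mem_alternatingGroup.2 hy'⟩ hy
  let ψ : ↥(alternatingGroup (Fin 8)) →* ↥(chevE6.group F) := φ.comp ι
  have hψ : Function.Injective ψ := hφ.comp hι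
  refine no_A8 h2 (V F) (by rw [finrank_fintype_fun_eq_card]; rfl) (cub hsurj ψ) (fun a ha => cub_sq big_odd_ker hsurj ψ ha)
    (fun a b hab => cub_comm big_odd_ker hsurj ψ hab) (fun a b ha hb hab => cub_mul big_odd_ker hsurj ψ ha hb hab)
    (fun g a => cub_conj big_odd_ker hsurj ψ g a) (fun a ha1 ha => ?_)
  have hne : cub hsurj ψ a ≠ 1 := by
    intro h
    have h3 := map_cub hsurj ψ ha
    rw [h, map_one] at h3
    exact ha1 (hψ (by rw [← h3, map_one]))
  rcases T.two hp2 _ hne (cub_sq big_odd_ker hsurj ψ ha) with h | h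
  · exact Or.inl h.1
  · exact Or.inr h.1

end Cases

end Cfsg.Agent.H163.E6
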